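import Cfsg.Agent.H2.Frob

/-! Dade's hypothesis for a transitive action with odd point stabilisers: the set-up. -/

set_option autoImplicit false

namespace Cfsg.Agent.H9.NC

open Subgroup

universe u

/-- the local hypothesis -/
structure Loc (Γ Λ : Type*) [Group Γ] [MulAction Γ Λ] : Prop where
  tr : ∀ b c : Λ, ∃ g : Γ, g • b = c
  odd : ∀ (g : Γ) (c : Λ), g • c = c → Odd (orderOf g)
  loc : ∀ Y : Subgroup Γ, Y ≠ ⊥ → (∃ c : Λ, ∀ y ∈ Y, y • c = c) → ∃ Q : Subgroup Γ, IsPGroup 2 Q ∧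
    (∀ q ∈ Q, ∀ y ∈ Y, q * y = y * q) ∧ (∀ h ∈ normalizer (Y : Set Γ), ∀ q ∈ Q, h * q * h⁻¹ ∈ Q) ∧
    ∀ b c : Λ, (∀ y ∈ Y, y • b = b) → (∀ y ∈ Y, y • c = c) → ∃ q ∈ Q, q • b = c

/-- the conclusion: the elements whose odd part is trivial or has no fixed point form a transitive subgroup -/
def Core (Γ Λ : Type*) [Group Γ] [MulAction Γ Λ] : Prop :=
  ∃ K : Subgroup Γ, (∀ g, g ∈ K ↔ ∀ y q : Γ, g = y * q → y * q = q * y → (∃ n : ℕ, q ^ 2 ^ n = 1) →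
    (∃ c : Λ, y • c = c) → y = 1) ∧ ∀ b c : Λ, ∃ g ∈ K, g • b = c

/-- the character-theoretic end-game -/
def CH (Γ W : Type u) [Group Γ] [Fintype Γ] [Group W] [Fintype W] : Prop :=
  ∀ r : Γ → W, r 1 = 1 → (∀ g h, IsConj (r (h * g * h⁻¹)) (r g)) →
    (∀ F : W → ℂ, IsClassFunction W F → F 1 = 0 →
      (Nat.card W : ℂ) * ∑ g, F (r g) = (Nat.card Γ : ℂ) * ∑ w, F w) →
    (∀ χ, IsIrrCharacter W χ → ∀ ψ, IsIrrCharacter Γ ψ →
      ∃ n : ℤ, classInner (fun g => χ (r g) - χ 1) ψ = n) →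
    ∃ K : Subgroup Γ, (∀ g, g ∈ K ↔ r g = 1) ∧ Nat.card K * Nat.card W = Nat.card Γ

end Cfsg.Agent.H9.NC
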