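import Cfsg.Agent.H9.BN.A

/-! The local analysis and Dade's formula. -/

set_option autoImplicit false
set_option linter.unusedSectionVars false
set_option linter.unusedVariables false

namespace Cfsg.Agent.H9.NC

open Subgroup MulAction
open scoped ComplexConjugate

universe u

variable {Γ : Type u} {Λ : Type*} [Group Γ] [Finite Γ] [MulAction Γ Λ] {Y Q : Subgroup Γ} {e : ℕ}

/-- `g ^ e` is the odd part of `g` -/
structure Ex (Γ : Type*) [Group Γ] (e : ℕ) : Prop where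
  odd : ∀ g : Γ, Odd (orderOf (g ^ e))
  id : ∀ y : Γ, Odd (orderOf y) → y ^ e = y
  two : ∀ (q : Γ) (n : ℕ), q ^ 2 ^ n = 1 → q ^ e = 1
  rest : ∀ g : Γ, ∃ n : ℕ, ((g ^ e)⁻¹ * g) ^ 2 ^ n = 1

theorem exists_ex : ∃ e, Ex Γ e := by
  obtain ⟨a, m, hm, h⟩ := Nat.exists_eq_two_pow_mul_odd (Nat.card_pos (α := Γ)).ne'
  have cop : Nat.Coprime (2 ^ a) m := (Nat.coprime_two_left.2 hm).pow_left a
  have d : 2 ^ a ∣ (2 ^ a) ^ m.totient := dvd_pow_self _ (Nat.totient_pos.2 hm.pos).ne'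
  have id : ∀ y : Γ, orderOf y ∣ m → y ^ (2 ^ a) ^ m.totient = y := fun y hy => by
    rw [pow_eq_pow_iff_modEq.2 ((Nat.ModEq.pow_totient cop).of_dvd hy), pow_one]
  refine ⟨(2 ^ a) ^ m.totient, fun g => hm.of_dvd_nat (orderOf_dvd_of_pow_eq_one ?_), fun y hy => id y ?_,
    fun q n hq => orderOf_dvd_iff_pow_eq_one.1 (Dvd.dvd.trans ?_ d), fun g => ⟨a, ?_⟩⟩
  · rw [← pow_mul]
    exact orderOf_dvd_iff_pow_eq_one.1 ((orderOf_dvd_natCard g).trans (h ▸ mul_dvd_mul d dvd_rfl))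
  · exact ((Nat.coprime_two_right.2 hy).pow_right a).dvd_of_dvd_mul_left (h ▸ orderOf_dvd_natCard y)
  · exact (((Nat.coprime_two_left.2 hm).pow_left n).coprime_dvd_left
      (orderOf_dvd_of_pow_eq_one hq)).dvd_of_dvd_mul_right (h ▸ orderOf_dvd_natCard q)
  · rw [((Commute.pow_self g _).inv_left).mul_pow, inv_pow, ← pow_mul, mul_comm, pow_mul, id, inv_mul_cancel]
    exact orderOf_dvd_of_pow_eq_one (by rw [← pow_mul, ← h, pow_card_eq_one'])

theorem one_of (x : Γ) (ho : Odd (orderOf x)) {n : ℕ} (h : x ^ 2 ^ n = 1) : x = 1 :=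
  orderOf_eq_one_iff.1 (Nat.eq_one_of_dvd_coprimes ((Nat.coprime_two_left.2 ho).pow_left n)
    (orderOf_dvd_of_pow_eq_one h) dvd_rfl)

/-- fixed points -/
def FX (Λ : Type*) [MulAction Γ Λ] (Y : Subgroup Γ) : Set Λ := {c | ∀ y ∈ Y, y • c = c}

theorem FX_smul {g : Γ} (hg : g ∈ normalizer (Y : Set Γ)) {c : Λ} (hc : c ∈ FX Λ Y) : g • c ∈ FX Λ Y :=
  fun y hy => by
    rw [← mul_smul, show y * g = g * (g⁻¹ * y * g⁻¹⁻¹) by group, mul_smul,
      hc _ ((mem_normalizer_iff.1 (inv_mem hg) y).1 hy)]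

structure QY (Λ : Type*) [MulAction Γ Λ] (Y Q : Subgroup Γ) : Prop where
  pg : IsPGroup 2 Q
  cent : ∀ q ∈ Q, ∀ y ∈ Y, q * y = y * q
  norm : ∀ h ∈ normalizer (Y : Set Γ), ∀ q ∈ Q, h * q * h⁻¹ ∈ Q
  tr : ∀ b ∈ FX Λ Y, ∀ c ∈ FX Λ Y, ∃ q ∈ Q, q • b = c

theorem QY.le (h : QY Λ Y Q) : Q ≤ normalizer (Y : Set Γ) := fun q hq =>
  centralizer_le_normalizer _ fun y hy => (h.cent q hq y hy).symm

namespace Loc

variable (L : Loc Γ Λ)
include L

theorem exQ (h : Y ≠ ⊥) {c : Λ} (hc : c ∈ FX Λ Y) : ∃ Q, QY Λ Y Q :=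
  let ⟨Q, h1, h2, h3, h4⟩ := L.loc Y h ⟨c, hc⟩
  ⟨Q, h1, h2, h3, fun b hb c hc => h4 b c hb hc⟩

theorem reg (h : QY Λ Y Q) {q : Γ} (hq : q ∈ Q) {c : Λ} (hc : q • c = c) : q = 1 :=
  let ⟨_, hn⟩ := h.pg ⟨q, hq⟩
  one_of q (L.odd q c hc) (congrArg Subtype.val hn)

theorem card_FX (h : QY Λ Y Q) {c : Λ} (hc : c ∈ FX Λ Y) : Nat.card Q = Nat.card (FX Λ Y) :=
  Nat.card_congr (Equiv.ofBijective (fun q => ⟨q.1 • c, FX_smul (h.le q.2) hc⟩)
    ⟨fun a b e => Subtype.ext (inv_mul_eq_one.1 (L.reg h (mul_mem (inv_mem a.2) b.2) (c := c) (by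
      rw [mul_smul, inv_smul_eq_iff]; exact (congrArg Subtype.val e).symm))),
    fun b => let ⟨q, hq, e⟩ := h.tr c hc b b.2; ⟨⟨q, hq⟩, Subtype.ext e⟩⟩)

theorem fixpt (h : Y ≠ ⊥) (hc : (FX Λ Y).Nonempty) {y : Γ} (ho : Odd (orderOf y))
    (hy : y ∈ normalizer (Y : Set Γ)) : ∃ c ∈ FX Λ Y, y • c = c := by
  induction hn : orderOf y using Nat.strong_induction_on generalizing y with | h n ih => ?_
  subst hn
  by_cases y1 : y = 1
  · obtain ⟨c, hc⟩ := hc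
    exact ⟨c, hc, by simp [y1]⟩
  obtain ⟨r, hr, hd⟩ := Nat.exists_prime_and_dvd (mt orderOf_eq_one_iff.1 y1)
  have : Fact r.Prime := ⟨hr⟩
  obtain ⟨c, h1, h2⟩ := ih _ (by
    rw [orderOf_pow_of_dvd hr.ne_zero hd]; exact Nat.div_lt_self (orderOf_pos y) hr.one_lt)
    (ho.of_dvd_nat (orderOf_pow_dvd r)) (pow_mem hy r) rfl
  have hF : ∀ c, c ∈ FX Λ (Y ⊔ zpowers (y ^ r)) ↔ c ∈ FX Λ Y ∧ y ^ r • c = c := fun c => by
    change Y ⊔ zpowers (y ^ r) ≤ stabilizer Γ c ↔ _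
    rw [sup_le_iff, zpowers_le]; rfl
  obtain ⟨Q, hQ⟩ := L.exQ (Y := Y ⊔ zpowers (y ^ r)) (fun e => h (eq_bot_iff.2 (e ▸ le_sup_left)))
    ((hF c).2 ⟨h1, h2⟩)
  obtain ⟨k, hk⟩ := IsPGroup.iff_card.1 hQ.pg
  rw [L.card_FX hQ ((hF c).2 ⟨h1, h2⟩)] at hk
  have : Finite (FX Λ (Y ⊔ zpowers (y ^ r))) := Nat.finite_of_card_ne_zero (by rw [hk]; positivity)
  let _ : MulAction (zpowers y) (FX Λ (Y ⊔ zpowers (y ^ r))) :=
    { smul g c := ⟨g.1 • c.1, (hF _).2 ⟨FX_smul (zpowers_le.2 hy g.2) ((hF _).1 c.2).1, by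
        obtain ⟨m, hm⟩ := g.2
        rw [← mul_smul, ← hm, ((Commute.refl y).zpow_right m |>.pow_left r).eq, mul_smul, ((hF _).1 c.2).2]⟩⟩
      one_smul c := Subtype.ext (one_smul Γ c.1)
      mul_smul a b c := Subtype.ext (mul_smul a.1 b.1 c.1) }
  have := Fintype.ofFinite (FX Λ (Y ⊔ zpowers (y ^ r)))
  obtain ⟨d, hd'⟩ := Equiv.Perm.exists_fixed_point_of_prime (p := r) (n := 1)
    (σ := toPermHom (zpowers y) (FX Λ (Y ⊔ zpowers (y ^ r))) ⟨y, mem_zpowers y⟩) (fun e => by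
      rw [← Nat.card_eq_fintype_card, hk] at e
      rw [(Nat.prime_dvd_prime_iff_eq hr Nat.prime_two).1 (hr.dvd_of_dvd_pow e)] at hd
      exact Nat.not_even_iff_odd.2 ho (even_iff_two_dvd.2 hd)) (by
      rw [pow_one, ← map_pow]
      exact Equiv.ext fun c => Subtype.ext ((hF _).1 c.2).2)
  exact ⟨d, ((hF _).1 d.2).1, congrArg Subtype.val hd'⟩

theorem exφ (h : QY Λ Y Q) {c : Λ} (hc : c ∈ FX Λ Y) :
    ∃ φ : normalizer (Y : Set Γ) →* stabilizer Γ c, (∀ g, g.1 * (φ g).1⁻¹ ∈ Q) ∧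
      ∀ g w, w • c = c → g.1 * w⁻¹ ∈ Q → (φ g).1 = w := by
  have ex : ∀ g : normalizer (Y : Set Γ), ∃ w : stabilizer Γ c, g.1 * w.1⁻¹ ∈ Q := fun g => by
    obtain ⟨q, hq, e⟩ := h.tr c hc _ (FX_smul g.2 hc)
    exact ⟨⟨q⁻¹ * g, by rw [mem_stabilizer_iff, mul_smul, ← e, inv_smul_smul]⟩, by simpa using hq⟩
  choose f hf using ex
  have uq : ∀ g w, w • c = c → g.1 * w⁻¹ ∈ Q → (f g).1 = w := fun g w hw h1 =>
    mul_inv_eq_one.1 (L.reg h (c := c) (by simpa [mul_assoc] using mul_mem (inv_mem (hf g)) h1) (by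
      rw [mul_smul, inv_smul_eq_iff.2 hw.symm]; exact (f g).2))
  refine ⟨MonoidHom.mk' f fun a b => Subtype.ext (uq _ _ (f a * f b).2 ?_), hf, uq⟩
  simpa [mul_assoc] using mul_mem (h.norm a a.2 _ (hf b)) (hf a)

theorem key (E : Ex Γ e) (hY : Y ≠ ⊥) (h : QY Λ Y Q) {c : Λ} (hc : c ∈ FX Λ Y)
    {φ : normalizer (Y : Set Γ) →* stabilizer Γ c}
    (hφ : ∀ g w, w • c = c → g.1 * w⁻¹ ∈ Q → (φ g).1 = w) (g : normalizer (Y : Set Γ)) :
    ∃ q : Γ, q⁻¹ * g.1 ^ e * q = φ g := by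
  obtain ⟨d, hd, h1⟩ := L.fixpt hY ⟨c, hc⟩ (E.odd g) (pow_mem g.2 e)
  obtain ⟨q, hq, rfl⟩ := h.tr c hc d hd
  refine ⟨q, ?_⟩
  rw [← E.id _ (L.odd _ c (φ g).2), ← SubgroupClass.coe_pow (φ g), ← map_pow]
  refine (hφ _ _ (by rw [mul_smul, mul_smul, h1, inv_smul_smul]) ?_).symm
  simpa [mul_assoc] using mul_mem (h.norm _ (pow_mem g.2 e) _ (inv_mem hq)) hq

theorem fus {c : Λ} {y x x' : Γ} (hx : x⁻¹ * y * x ∈ stabilizer Γ c) (hx' : x'⁻¹ * y * x' ∈ stabilizer Γ c) :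
    IsConj (⟨_, hx⟩ : stabilizer Γ c) ⟨_, hx'⟩ := by
  by_cases y1 : y = 1
  · subst y1
    exact isConj_iff.2 ⟨1, Subtype.ext (by simp)⟩
  have m : ∀ {x : Γ}, x⁻¹ * y * x ∈ stabilizer Γ c → x • c ∈ FX Λ (zpowers y) := fun {x} hx =>
    (zpowers_le (H := stabilizer Γ (x • c))).2 (by
      rwa [mem_stabilizer_iff, mul_smul, mul_smul, inv_smul_eq_iff] at hx)
  obtain ⟨Q, hQ⟩ := L.exQ (mt zpowers_eq_bot.1 y1) (m hx)
  obtain ⟨q, hq, e⟩ := hQ.tr _ (m hx) _ (m hx')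
  refine isConj_iff.2 ⟨⟨x'⁻¹ * q * x, by rw [mem_stabilizer_iff, mul_smul, mul_smul, e, inv_smul_smul]⟩,
    Subtype.ext ?_⟩
  calc _ = x'⁻¹ * (q * y) * q⁻¹ * x' := by simp [mul_assoc]
    _ = _ := by rw [hQ.cent q hq y (mem_zpowers y)]; simp [mul_assoc]

theorem count (E : Ex Γ e) {c : Λ} {y x : Γ} (y1 : y ≠ 1) (hx : x⁻¹ * y * x ∈ stabilizer Γ c) :
    Nat.card (stabilizer Γ c) * Nat.card {g // g ^ e = y} = Nat.card {x // x⁻¹ * y * x ∈ stabilizer Γ c} := by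
  have m : ∀ {x : Γ}, x⁻¹ * y * x ∈ stabilizer Γ c ↔ x • c ∈ FX Λ (zpowers y) := fun {x} => by
    rw [mem_stabilizer_iff, mul_smul, mul_smul, inv_smul_eq_iff]
    exact (zpowers_le (H := stabilizer Γ (x • c))).symm
  have hd := m.1 hx
  obtain ⟨Q, hQ⟩ := L.exQ (mt zpowers_eq_bot.1 y1) hd
  obtain ⟨φ, h1, h2⟩ := L.exφ hQ hd
  have ho := L.odd y _ (hd y (mem_zpowers y))
  have e1 : Nat.card Q = Nat.card {g // g ^ e = y} :=
    Nat.card_congr (Equiv.ofBijective (fun q => ⟨y * q.1, by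
      obtain ⟨n, hn⟩ := hQ.pg q
      rw [Commute.mul_pow (hQ.cent q q.2 y (mem_zpowers y)).symm, E.id y ho,
        E.two q n (congrArg Subtype.val hn), mul_one]⟩)
      ⟨fun a b e => Subtype.ext (by simpa using e), fun ⟨g, hg⟩ => ⟨⟨y⁻¹ * g, by
        obtain ⟨n, hn⟩ := E.rest g
        rw [hg] at hn
        have hN : y⁻¹ * g ∈ normalizer (zpowers y : Set Γ) := centralizer_le_normalizer _ (by
          rintro _ ⟨m, rfl⟩
          exact (Commute.mul_right (Commute.refl y).inv_right (hg ▸ Commute.pow_self g e)).zpow_left m)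
        have := h1 ⟨_, hN⟩
        rwa [one_of _ (L.odd _ _ (φ ⟨_, hN⟩).2) (n := n) (by
          rw [← SubgroupClass.coe_pow, ← map_pow, show (⟨_, hN⟩ : normalizer (zpowers y : Set Γ)) ^ 2 ^ n = 1
            from Subtype.ext hn, map_one, coe_one]), inv_one, mul_one] at this⟩, Subtype.ext (by simp)⟩⟩)
  rw [← e1, ← Nat.card_prod]
  refine Nat.card_congr (Equiv.ofBijective (fun p => ⟨p.2.1 * x * p.1.1, m.2 (by
    rw [mul_smul, mul_smul, p.1.2]; exact FX_smul (hQ.le p.2.2) hd)⟩) ⟨fun a b e => ?_, fun ⟨x', hx'⟩ => ?_⟩)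
  · have e2 : a.2.1 * x * a.1.1 = b.2.1 * x * b.1.1 := congrArg Subtype.val e
    have e3 : a.2 = b.2 := Subtype.ext (inv_mul_eq_one.1 (L.reg hQ (mul_mem (inv_mem a.2.2) b.2.2) (c := x • c) (by
      have := congrArg (· • c) e2
      simp only [mul_smul, show a.1.1 • c = c from a.1.2, show b.1.1 • c = c from b.1.2] at this
      rw [mul_smul, ← this, inv_smul_smul])))
    rw [e3] at e2
    exact Prod.ext (Subtype.ext (mul_left_cancel e2)) e3
  · obtain ⟨q, hq, e⟩ := hQ.tr _ hd _ (m.1 hx')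
    exact ⟨⟨⟨x⁻¹ * q⁻¹ * x', by rw [mem_stabilizer_iff, mul_smul, mul_smul, ← e]; simp⟩, q, hq⟩,
      Subtype.ext (by simp [mul_assoc])⟩

end Loc

theorem int_sum {X : Type*} [Fintype X] [MulAction Γ X] (f : X → ℂ) (inv : ∀ (g : Γ) x, f (g • x) = f x)
    (hf : ∀ x, ∃ n : ℤ, f x = n * Nat.card (stabilizer Γ x)) : ∃ n : ℤ, ∑ x, f x = n * Nat.card Γ := by
  classical
  choose n hn using hf
  have := Fintype.ofFinite (orbitRel.Quotient Γ X)
  refine ⟨∑ ω : orbitRel.Quotient Γ X, n ω.out, ?_⟩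
  rw [← Finset.sum_fiberwise Finset.univ (fun x => (Quotient.mk'' x : orbitRel.Quotient Γ X)) f]
  push_cast
  rw [Finset.sum_mul]
  refine Finset.sum_congr rfl fun ω _ => ?_
  have m : ∀ x, (Quotient.mk'' x : orbitRel.Quotient Γ X) = ω ↔ x ∈ orbit Γ ω.out := fun x => by
    rw [← orbitRel_apply, ← Quotient.eq'', Quotient.out_eq']
  rw [Finset.sum_congr rfl (g := fun _ => f ω.out) fun x hx => by
    obtain ⟨g, rfl⟩ := (m x).1 (Finset.mem_filter.1 hx).2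
    exact inv g _, Finset.sum_const, nsmul_eq_mul, hn, ← (stabilizer Γ ω.out).index_mul_card, index_stabilizer,
    ← Set.ncard_coe_finset, show ((Finset.univ.filter _ : Finset X) : Set X) = orbit Γ ω.out from
      Set.ext fun x => by simp [m]]
  push_cast; ring

open Classical in
/-- a conjugate of `y` in the point stabiliser -/
noncomputable def rr (c : Λ) (y : Γ) : stabilizer Γ c :=
  if h : ∃ x, x⁻¹ * y * x ∈ stabilizer Γ c then ⟨_, h.choose_spec⟩ else 1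

theorem Loc.rr_conj (L : Loc Γ Λ) {c : Λ} {y x : Γ} (hx : x⁻¹ * y * x ∈ stabilizer Γ c) :
    IsConj (rr c y) ⟨_, hx⟩ := by
  rw [rr, dif_pos ⟨x, hx⟩]; exact L.fus _ _

theorem rr_ne {c : Λ} {y : Γ} (h : rr c y ≠ 1) : y ≠ 1 ∧ ∃ x, x⁻¹ * y * x ∈ stabilizer Γ c := by
  by_cases h1 : ∃ x, x⁻¹ * y * x ∈ stabilizer Γ c
  · exact ⟨fun e => h (by rw [rr, dif_pos h1]; exact Subtype.ext (by simp [e])), h1⟩
  · exact absurd (dif_neg h1) h

theorem cf {W : Type*} [Group W] {F : W → ℂ} (hF : IsClassFunction W F) {a b : W} (h : IsConj a b) :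
    F a = F b := by
  obtain ⟨c, rfl⟩ := isConj_iff.1 h
  exact (hF a c).symm

theorem Loc.cls (L : Loc Γ Λ) (c : Λ) (y h : Γ) : IsConj (rr c (h * y * h⁻¹)) (rr c y) := by
  by_cases h1 : ∃ x, x⁻¹ * y * x ∈ stabilizer Γ c
  · obtain ⟨x, hx⟩ := h1
    refine (L.rr_conj (x := h * x) (by simpa [mul_assoc] using hx)).trans (IsConj.trans ?_ (L.rr_conj hx).symm)
    exact isConj_iff.2 ⟨1, Subtype.ext (by simp [mul_assoc])⟩
  · rw [rr, rr, dif_neg h1, dif_neg fun ⟨x, hx⟩ => h1 ⟨h⁻¹ * x, by simpa [mul_assoc] using hx⟩]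

theorem Loc.avg [Fintype Γ] (L : Loc Γ Λ) (E : Ex Γ e) (c : Λ) [Fintype (stabilizer Γ c)]
    (F : stabilizer Γ c → ℂ) (hF : IsClassFunction _ F) (h1 : F 1 = 0) :
    (Nat.card (stabilizer Γ c) : ℂ) * ∑ g, F (rr c (g ^ e)) = (Nat.card Γ : ℂ) * ∑ w, F w := by
  classical
  rw [← Finset.sum_fiberwise Finset.univ (· ^ e), Finset.mul_sum]
  have e1 : ∀ y : Γ, (Nat.card (stabilizer Γ c) : ℂ) * ∑ g with g ^ e = y, F (rr c (g ^ e)) =
      ∑ x : Γ, extendByZero _ F (x⁻¹ * y * x) := fun y => by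
    rw [Finset.sum_congr rfl (g := fun _ => F (rr c y)) fun g hg => by rw [(Finset.mem_filter.1 hg).2],
      Finset.sum_congr rfl (f := fun x => extendByZero _ F (x⁻¹ * y * x))
        (g := fun x => if x⁻¹ * y * x ∈ stabilizer Γ c then F (rr c y) else 0) fun x _ => by
        split_ifs with h
        exacts [(H2.extendByZero_mem _ _ h).trans (cf hF (L.rr_conj h)).symm, H2.extendByZero_not_mem _ _ h],
      ← Finset.sum_filter, Finset.sum_const, Finset.sum_const, nsmul_eq_mul, nsmul_eq_mul]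
    by_cases h : rr c y = 1
    · simp [h, h1]
    · obtain ⟨y1, x, hx⟩ := rr_ne h
      rw [← mul_assoc, ← Fintype.card_subtype, ← Fintype.card_subtype, ← Nat.card_eq_fintype_card,
        ← Nat.card_eq_fintype_card, ← L.count E y1 hx, Nat.cast_mul]
  rw [Finset.sum_congr rfl fun y _ => e1 y, Finset.sum_comm, Finset.sum_congr rfl (g := fun _ => ∑ w, F w)
    fun x _ => ?_, Finset.sum_const, nsmul_eq_mul, Finset.card_univ, Nat.card_eq_fintype_card]
  have := H2.sum_extendByZero _ F fun _ => 1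
  simp only [mul_one] at this
  rw [← this]
  exact Fintype.sum_equiv (MulAut.conj x⁻¹).toEquiv _ _ fun g => by simp

theorem Loc.int [Fintype Γ] (L : Loc Γ Λ) (E : Ex Γ e) (c : Λ) {χ : stabilizer Γ c → ℂ}
    (hχ : IsIrrCharacter _ χ) {ψ : Γ → ℂ} (hψ : IsIrrCharacter Γ ψ) :
    ∃ n : ℤ, classInner (fun g => χ (rr c (g ^ e)) - χ 1) ψ = n := by
  classical
  obtain ⟨d, ρ, -, rfl⟩ := hχ
  obtain ⟨d', σ, -, rfl⟩ := hψ
  let _ : MulAction Γ (Finset Γ) :=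
    { smul g B := B.map (MulAut.conj g).toEquiv.toEmbedding
      one_smul B := by change B.map _ = B; ext; simp [-map_one]
      mul_smul a b B := by change B.map _ = (B.map _).map _; ext; simp [-map_mul, mul_assoc] }
  have m : ∀ (g : Γ) (B : Finset Γ) b, b ∈ g • B ↔ g⁻¹ * b * g ∈ B := fun g B b => by
    change b ∈ B.map _ ↔ _; simp
  let F : Γ → ℂ := fun g => (ρ.character (rr c (g ^ e)) - ρ.character 1) * conj (σ.character g)
  have hF : ∀ g h, F (h * g * h⁻¹) = F g := fun g h => by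
    simp only [F, conj_pow, Representation.char_conj, cf ρ.char_conj (L.cls c _ h)]
  let P : Finset Γ → Prop := fun B => 1 ∉ B ∧ ∃ d : Λ, ∀ b ∈ B, b • d = d
  let f : Finset Γ → ℂ := fun B => ∑ g, if P B ∧ g • B = B then (-1) ^ B.card * F g else 0
  have h0 : ∑ B, f B = 0 := by
    rw [Finset.sum_comm]
    refine Finset.sum_eq_zero fun g _ => ?_
    by_cases h : rr c (g ^ e) = 1
    · simp [F, h]
    obtain ⟨y1, x, hx⟩ := rr_ne h
    have cm : g⁻¹ * g ^ e * g = g ^ e := by group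
    rw [← Finset.sum_filter]
    refine Finset.sum_involution (fun B _ => if g ^ e ∈ B then B.erase (g ^ e) else insert (g ^ e) B)
      (fun B _ => ?_) (fun B _ _ => ?_) (fun B hB => ?_) fun B _ => ?_
    · split_ifs with h
      · rw [← Finset.card_erase_add_one h]; ring
      · rw [Finset.card_insert_of_notMem h]; ring
    · split_ifs with h
      exacts [fun e => Finset.notMem_erase _ B (e.symm ▸ h), fun e => h (e ▸ Finset.mem_insert_self _ _)]
    · obtain ⟨-, ⟨h1, d, hd⟩, h2⟩ := Finset.mem_filter.1 hB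
      have h3 : ∀ b, g⁻¹ * b * g ∈ B ↔ b ∈ B := fun b => by rw [← m, h2]
      have h4 : ∀ b, g⁻¹ * b * g = g ^ e ↔ b = g ^ e := fun b => by
        nth_rewrite 1 [← cm]; simp
      refine Finset.mem_filter.2 ⟨Finset.mem_univ _, ?_⟩
      split_ifs with h
      · exact ⟨⟨fun h => h1 (Finset.mem_of_mem_erase h), d, fun b hb => hd b (Finset.mem_of_mem_erase hb)⟩,
          Finset.ext fun b => by simp only [m, Finset.mem_erase, ne_eq, h3, h4]⟩
      · refine ⟨⟨by simp [h1, y1.symm], ?_⟩, Finset.ext fun b => by simp only [m, Finset.mem_insert, h3, h4]⟩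
        rcases B.eq_empty_or_nonempty with rfl | ⟨b, hb⟩
        · exact ⟨x • c, by simpa [mul_smul, inv_smul_eq_iff] using hx⟩
        · obtain ⟨d', h5, h6⟩ := L.fixpt (Y := closure B) (fun e => h1 (mem_bot.1 (e ▸ subset_closure hb) ▸ hb))
            ⟨d, (closure_le (stabilizer Γ d)).2 hd⟩ (E.odd g) (pow_mem (normalizer_le_normalizer_closure _ fun b => by
              simpa [mul_assoc] using h3 (g * b * g⁻¹)) e)
          exact ⟨d', fun b hb => (Finset.mem_insert.1 hb).elim (· ▸ h6) fun hb => h5 b (subset_closure hb)⟩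
    · by_cases h : g ^ e ∈ B <;> simp [h]
  obtain ⟨n, hn⟩ := int_sum (Γ := Γ) (fun B => if B = ∅ then 0 else f B) (fun h B => by
    have e1 : h • B = ∅ ↔ B = ∅ := Finset.map_eq_empty
    have e2 : P (h • B) ↔ P B := and_congr (by simp [m]) ⟨fun ⟨d, hd⟩ => ⟨h⁻¹ • d, fun b hb => by
      rw [← mul_smul, ← inv_mul_cancel_left h (b * h⁻¹), mul_smul, ← mul_assoc, hd _ (by simpa [m, mul_assoc])]⟩,
      fun ⟨d, hd⟩ => ⟨h • d, fun b hb => by
        rw [← mul_smul, ← mul_inv_cancel_left h (b * h), mul_smul, ← mul_assoc, hd _ ((m ..).1 hb)]⟩⟩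
    simp only [e1, f, e2, show (h • B).card = B.card from Finset.card_map _]
    congr 1
    refine (Fintype.sum_equiv (MulAut.conj h).toEquiv _ _ fun g => ?_).symm
    simp [hF, mul_smul]) fun B => by
    by_cases h1 : B = ∅
    · exact ⟨0, by simp [h1]⟩
    by_cases h2 : P B
    swap
    · exact ⟨0, by simp [f, h2]⟩
    obtain ⟨b, hb⟩ := Finset.nonempty_iff_ne_empty.2 h1
    obtain ⟨h3, d, hd⟩ := id h2
    obtain ⟨x, rfl⟩ := L.tr c d
    have hY : closure (B : Set Γ) ≠ ⊥ := fun e => h3 (mem_bot.1 (e ▸ subset_closure hb) ▸ hb)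
    have hc : x • c ∈ FX Λ (closure (B : Set Γ)) := (closure_le (stabilizer Γ (x • c))).2 hd
    obtain ⟨Q, hQ⟩ := L.exQ hY hc
    obtain ⟨φ, -, hφ⟩ := L.exφ hQ hc
    have le : stabilizer Γ B ≤ normalizer (closure (B : Set Γ) : Set Γ) := fun g hg =>
      normalizer_le_normalizer_closure _ fun b => by
        nth_rewrite 2 [← mem_stabilizer_iff.1 hg]
        simp [m, mul_assoc]
    let τ : stabilizer Γ B →* stabilizer Γ c := ((MulAut.conj x⁻¹).toMonoidHom.comp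
      ((stabilizer Γ (x • c)).subtype.comp (φ.comp (inclusion le)))).codRestrict _ fun g => by
        simpa [mul_smul, inv_smul_eq_iff] using mem_stabilizer_iff.1 (φ (inclusion le g)).2
    have e1 : ∀ g : stabilizer Γ B, ρ.character (rr c (g.1 ^ e)) = Representation.character (ρ.comp τ) g :=
      fun g => by
        obtain ⟨q, hq⟩ := L.key E hY hQ hc hφ (inclusion le g)
        have e2 : (q * x)⁻¹ * g.1 ^ e * (q * x) = τ g := by
          change _ = x⁻¹ * (φ (inclusion le g)).1 * x⁻¹⁻¹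
          rw [← hq]; simp [mul_assoc]
        rw [cf ρ.char_conj (L.rr_conj (e2 ▸ (τ g).2))]
        exact congrArg ρ.character (Subtype.ext e2)
    have e2 := H1.classInner_char (σ.comp (stabilizer Γ B).subtype) (ρ.comp τ)
    have e3 := H1.classInner_char (σ.comp (stabilizer Γ B).subtype) (ρ.comp (1 : _ →* stabilizer Γ c))
    have ne : (Nat.card (stabilizer Γ B) : ℂ) ≠ 0 := by exact_mod_cast Nat.card_pos.ne'
    rw [classInner, inv_mul_eq_iff_eq_mul₀ ne] at e2 e3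
    generalize Module.finrank ℂ (Representation.IntertwiningMap (σ.comp (stabilizer Γ B).subtype)
      (ρ.comp τ)) = n1 at e2
    generalize Module.finrank ℂ (Representation.IntertwiningMap (σ.comp (stabilizer Γ B).subtype)
      (ρ.comp (1 : _ →* stabilizer Γ c))) = n2 at e3
    refine ⟨(-1) ^ B.card * (n1 - n2), ?_⟩
    simp only [if_neg h1, f, h2, true_and]
    rw [← Finset.sum_filter, ← Finset.mul_sum, Finset.sum_subtype (p := (· ∈ stabilizer Γ B)) _ (by simp)]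
    push_cast
    rw [mul_assoc, sub_mul, mul_comm (n1 : ℂ), mul_comm (n2 : ℂ), ← e2, ← e3, ← Finset.sum_sub_distrib]
    simp only [F, e1, sub_mul]
    rfl
  have h1 : f ∅ = ∑ g, F g := Finset.sum_congr rfl fun g _ => by
    rw [if_pos ⟨⟨by simp, c, by simp⟩, rfl⟩]; simp
  rw [← Finset.add_sum_erase _ _ (Finset.mem_univ ∅)] at h0 hn
  rw [if_pos rfl, zero_add, Finset.sum_congr rfl fun B hB => if_neg (Finset.ne_of_mem_erase hB)] at hn
  have ne : (Nat.card Γ : ℂ) ≠ 0 := by exact_mod_cast Nat.card_pos.ne'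
  refine ⟨-n, ?_⟩
  rw [classInner, inv_mul_eq_iff_eq_mul₀ ne]
  push_cast
  linear_combination h0 - hn - h1

theorem core (ch : ∀ (Γ W : Type u) [Group Γ] [Fintype Γ] [Group W] [Fintype W], CH Γ W) [Nonempty Λ]
    (L : Loc Γ Λ) : Core Γ Λ := by
  obtain ⟨c⟩ := ‹Nonempty Λ›
  obtain ⟨e, E⟩ := exists_ex (Γ := Γ)
  have := Fintype.ofFinite Γ
  have := Fintype.ofFinite (stabilizer Γ c)
  obtain ⟨K, h1, h2⟩ := ch Γ (stabilizer Γ c) (fun g => rr c (g ^ e))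
    (by_contra fun h => (rr_ne h).1 (one_pow e)) (fun g h => by rw [conj_pow]; exact L.cls ..)
    (L.avg E c) fun χ hχ ψ hψ => L.int E c hχ hψ
  have h3 : ∀ g, g ∈ K ↔ ∀ y q : Γ, g = y * q → y * q = q * y → (∃ n : ℕ, q ^ 2 ^ n = 1) →
      (∃ c : Λ, y • c = c) → y = 1 := fun g => by
    rw [h1]
    refine ⟨fun h y q e1 e2 ⟨n, hn⟩ ⟨d, hd⟩ => ?_, fun h => by_contra fun hn => ?_⟩
    · obtain ⟨x, rfl⟩ := L.tr c d
      rw [e1, Commute.mul_pow e2, E.id y (L.odd _ _ hd), E.two q n hn, mul_one] at h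
      have := L.rr_conj (c := c) (y := y) (x := x) (by simpa [mul_smul, inv_smul_eq_iff] using hd)
      rw [h, isConj_one_right] at this
      simpa [mul_assoc] using congrArg (fun w : stabilizer Γ c => x * w * x⁻¹) this
    · obtain ⟨y1, x, hx⟩ := rr_ne hn
      exact y1 (h _ ((g ^ e)⁻¹ * g) (by simp) (by group) (E.rest g)
        ⟨x • c, by simpa [mul_smul, inv_smul_eq_iff] using hx⟩)
  have : IsPretransitive Γ Λ := ⟨L.tr⟩
  have : Finite Λ := Finite.of_surjective (fun g : Γ => g • c) (L.tr c)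
  have h4 : Function.Surjective fun k : K => k.1 • c := by
    refine ((Nat.bijective_iff_injective_and_card _).2 ⟨fun a b e => Subtype.ext (inv_mul_eq_one.1
      ((h3 _).1 (mul_mem (inv_mem a.2) b.2) _ 1 (by simp) (by simp) ⟨0, by simp⟩ ⟨c, ?_⟩)), ?_⟩).2
    · rw [mul_smul, inv_smul_eq_iff]; exact e.symm
    · rw [← (stabilizer Γ c).index_mul_card, index_stabilizer_of_transitive] at h2
      exact Nat.eq_of_mul_eq_mul_right Nat.card_pos h2
  refine ⟨K, h3, fun a b => ?_⟩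
  obtain ⟨k, rfl⟩ := h4 a
  obtain ⟨l, rfl⟩ := h4 b
  exact ⟨l * k⁻¹, mul_mem l.2 (inv_mem k.2), by simp [mul_smul]⟩

end Cfsg.Agent.H9.NC
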